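import Cfsg.Agent.Lib.KInf.Stable

/-!
# Engel bounds on chief factors from those inside a critical subgroup
-/

set_option autoImplicit false

namespace Cfsg.Agent.Lib.KInf.ChiefBound

open Cfsg Subgroup Cfsg.Agent.Lib.KInf.Comm Cfsg.Agent.Lib.KInf.Critical
open scoped commutatorElement

variable {G : Type*} [Group G] [Finite G] {p : ℕ} [Fact p.Prime]

omit [Finite G] [Fact p.Prime] in
lemma normal_of_char {P Q : Subgroup G} (hPn : P.Normal) (hQP : Q ≤ P)
    (hQchar : (Q.subgroupOf P).Characteristic) : Q.Normal := by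
  constructor
  intro q hq x
  have h1 : (⟨q, hQP hq⟩ : P) ∈ Q.subgroupOf P := Subgroup.mem_subgroupOf.2 hq
  let ψ : P ≃* P := MulAut.conjNormal x
  have h2 := hQchar.fixed ψ
  rw [← h2] at h1
  have h3 : ψ (⟨q, hQP hq⟩ : P) ∈ Q.subgroupOf P := h1
  have h4 := Subgroup.mem_subgroupOf.1 h3
  simpa [ψ] using h4

theorem chief_bound {P Q : Subgroup G} (hPn : P.Normal) (hP : IsPGroup p P) (hQn : Q.Normal)
    (hQP : Q ≤ P) (hQ3 : ⁅P, Q⁆ ≤ Zc Q) (hQ4 : P ⊓ centralizer (Q : Set G) = Zc Q)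
    (g : G) (i j : ℕ) (hi : 1 ≤ i) (hj : 1 ≤ j)
    (hQi : ∀ U V : Subgroup G, IsChiefFactor U V → U ≤ Q → iterCommutator U (zpowers g) i ≤ V)
    (hZj : ∀ U V : Subgroup G, IsChiefFactor U V → U ≤ Zc Q → iterCommutator U (zpowers g) j ≤ V)
    {E F : Subgroup G} (hEF : IsChiefFactor E F) (hEP : E ≤ P) :
    iterCommutator E (zpowers g) (i + j - 1) ≤ F := by
  classical
  obtain ⟨hlt, hEn, hFn, hmin⟩ := id hEF
  have := hEn; have := hFn; have := hQn; have := hPn
  have hEc : ⁅E, zpowers g⁆ ≤ E := comm_normal_le hEn _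
  by_cases hEQ : E ⊓ Q ≤ F
  · -- the main case
    have hZn : (Zc Q).Normal := Zc_normal hQn
    have hZQ : Zc Q ≤ Q := inf_le_left
    -- the choice of `W₀`
    let 𝓦 : Set (Subgroup G) := {W' | ∃ h : W'.Normal, W' ≤ Zc Q ∧ E ≤ (E ⊓ relC Q W' h) ⊔ F}
    have hne : 𝓦.Nonempty := by
      refine ⟨Zc Q, hZn, le_rfl, ?_⟩
      have h1 : E ≤ relC Q (Zc Q) hZn := by
        apply le_relC_iff.2
        rw [Subgroup.commutator_comm]
        exact (Subgroup.commutator_mono hEP le_rfl).trans hQ3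
      rw [inf_eq_left.2 h1]
      exact le_sup_left
    obtain ⟨W₀, hW₀⟩ := (Set.toFinite 𝓦).exists_minimal hne
    obtain ⟨⟨hW₀n, hW₀Z, hW₀c⟩, hW₀min⟩ := hW₀
    have hW₀b : W₀ ≠ ⊥ := by
      rintro rfl
      apply hlt.not_ge
      refine hW₀c.trans (sup_le ?_ le_rfl)
      rintro x ⟨hxE, hxC⟩
      have h1 : x ∈ centralizer (Q : Set G) := relC_bot_le hxC
      have h2 : x ∈ Zc Q := by
        rw [← hQ4]
        exact ⟨hEP hxE, h1⟩
      exact hEQ ⟨hxE, hZQ h2⟩
    obtain ⟨W₁, hW₁⟩ := Cfsg.Agent.Lib.KInf.Stable.exists_chief_below hW₀n hW₀b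
    have hW₁n : W₁.Normal := hW₁.2.2.1
    have := hW₀n; have := hW₁n
    -- `W₁` fails
    have hW₁not : ¬ E ≤ (E ⊓ relC Q W₁ hW₁n) ⊔ F := by
      intro h
      have h1 : W₁ ∈ 𝓦 := ⟨hW₁n, hW₁.1.le.trans hW₀Z, h⟩
      exact hW₁.1.not_ge (hW₀min h1 hW₁.1.le)
    have hW₀P : W₀ ≤ P := (hW₀Z.trans hZQ).trans hQP
    have hW₀T : ⁅W₀, P⁆ ≤ W₁ := chief_comm_le hP hPn hW₁ hW₀P
    -- the normal subgroup `X₀`
    have hrel₀ : (relC Q W₀ hW₀n).Normal := relC_normal hQn hW₀n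
    have := hrel₀
    set X₀ := E ⊓ relC Q W₀ hW₀n with hX₀
    have hX₀n : X₀.Normal := Subgroup.normal_inf_normal _ _
    have := hX₀n
    -- the choice of `U₀`
    let 𝓤 : Set (Subgroup G) := {U' | U'.Normal ∧ U' ≤ Q ∧ ¬ E ≤ (X₀ ⊓ relC U' W₁ hW₁n) ⊔ F}
    have hne2 : 𝓤.Nonempty := by
      refine ⟨Q, hQn, le_rfl, ?_⟩
      intro h
      refine hW₁not (h.trans (sup_le_sup_right ?_ _))
      exact le_inf (inf_le_left.trans inf_le_left) inf_le_right
    obtain ⟨U₀, hU₀⟩ := (Set.toFinite 𝓤).exists_minimal hne2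
    obtain ⟨⟨hU₀n, hU₀Q, hU₀c⟩, hU₀min⟩ := hU₀
    have hU₀b : U₀ ≠ ⊥ := by
      rintro rfl
      apply hU₀c
      have h1 : X₀ ≤ relC ⊥ W₁ hW₁n := by
        intro t _ u hu
        rw [Subgroup.mem_bot] at hu
        rw [hu, commutatorElement_one_left]
        exact W₁.one_mem
      rw [inf_eq_left.2 h1]
      exact hW₀c
    obtain ⟨U₁, hU₁⟩ := Cfsg.Agent.Lib.KInf.Stable.exists_chief_below hU₀n hU₀b
    have hU₁n : U₁.Normal := hU₁.2.2.1
    have := hU₀n; have := hU₁n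
    have hU₁cov : E ≤ (X₀ ⊓ relC U₁ W₁ hW₁n) ⊔ F := by
      by_contra hnot
      have h1 : U₁ ∈ 𝓤 := ⟨hU₁n, hU₁.1.le.trans hU₀Q, hnot⟩
      exact hU₁.1.not_ge (hU₀min h1 hU₁.1.le)
    have hrel₁ : (relC U₁ W₁ hW₁n).Normal := relC_normal hU₁n hW₁n
    have hrel₂ : (relC U₀ W₁ hW₁n).Normal := relC_normal hU₀n hW₁n
    have := hrel₁; have := hrel₂
    set X₁ := E ⊓ (X₀ ⊓ relC U₁ W₁ hW₁n) with hX₁
    have hX₁n : X₁.Normal := by
      have : (X₀ ⊓ relC U₁ W₁ hW₁n).Normal := Subgroup.normal_inf_normal _ _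
      exact Subgroup.normal_inf_normal _ _
    have hX₁cov : E ≤ X₁ ⊔ F := Cfsg.Agent.Lib.KInf.Critical.inf_cover hFn hlt.le hU₁cov
    have hX₁E : X₁ ≤ E := inf_le_left
    have hX₁X₀ : X₁ ≤ X₀ := inf_le_right.trans inf_le_left
    -- the kernel of the pairing lies in `F`
    have hker : X₁ ⊓ relC U₀ W₁ hW₁n ≤ F := by
      have := hX₁n
      have hN : ((X₁ ⊓ relC U₀ W₁ hW₁n) ⊔ F).Normal := by
        have : (X₁ ⊓ relC U₀ W₁ hW₁n).Normal := Subgroup.normal_inf_normal _ _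
        exact Subgroup.sup_normal _ _
      rcases hmin _ hN le_sup_right (sup_le (inf_le_left.trans hX₁E) hlt.le) with h | h
      · rw [← h]
        exact le_sup_left
      · exfalso
        apply hU₀c
        rw [← h]
        refine sup_le_sup_right ?_ _
        exact le_inf (inf_le_left.trans hX₁X₀) inf_le_right
    have hU₀P : U₀ ≤ P := hU₀Q.trans hQP
    have hX₁P : X₁ ≤ P := hX₁E.trans hEP
    have key := pairing_mod (U := U₀) (X := X₁) (M := W₀) (W₁ := W₁) hW₁n hU₀n hX₁n hW₀n g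
      i j (i + j - 1) (by omega)
      ((Subgroup.commutator_mono hU₀Q hX₁X₀).trans (le_relC_iff.1 inf_le_right))
      ((Subgroup.commutator_mono le_rfl hU₀P).trans hW₀T)
      ((Subgroup.commutator_mono le_rfl hX₁P).trans hW₀T)
      ((Subgroup.commutator_mono le_rfl hW₀P).trans hW₀T)
      (by
        intro u hu t ht
        have h1 := hQi U₀ U₁ hU₁ hU₀Q hu
        exact (inf_le_right.trans inf_le_right : X₁ ≤ relC U₁ W₁ hW₁n) ht u h1)
      (hZj W₀ W₁ hW₁ hW₀Z)
    have hX₁c : ⁅X₁, zpowers g⁆ ≤ X₁ := comm_normal_le hX₁n _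
    have h6 : iterCommutator X₁ (zpowers g) (i + j - 1) ≤ F := by
      intro t ht
      exact hker ⟨iter_le hX₁c _ ht, fun u hu => key u hu t ht⟩
    exact iter_le_of_cover hFn hX₁cov h6
  · -- the chief factor is inside `Q`
    have hEQn : (E ⊓ Q).Normal := Subgroup.normal_inf_normal _ _
    have hFQn : (F ⊓ Q).Normal := Subgroup.normal_inf_normal _ _
    have hN : ((E ⊓ Q) ⊔ F).Normal := Subgroup.sup_normal _ _
    have hcov : (E ⊓ Q) ⊔ F = E := by
      rcases hmin _ hN le_sup_right (sup_le inf_le_left hlt.le) with h | h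
      · exfalso
        apply hEQ
        rw [← h]
        exact le_sup_left
      · exact h
    have hchief : IsChiefFactor (E ⊓ Q) (F ⊓ Q) := by
      refine ⟨?_, hEQn, hFQn, ?_⟩
      · refine lt_of_le_of_ne (inf_le_inf_right _ hlt.le) ?_
        intro he
        exact hEQ (he ▸ inf_le_left)
      · intro N hNn hFN hNE
        have := hNn
        have hN2 : (N ⊔ F).Normal := Subgroup.sup_normal _ _
        rcases hmin _ hN2 le_sup_right (sup_le (hNE.trans inf_le_left) hlt.le) with h | h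
        · left
          refine le_antisymm ?_ hFN
          refine le_inf ?_ (hNE.trans inf_le_right)
          rw [← h]
          exact le_sup_left
        · right
          refine le_antisymm hNE ?_
          rintro x ⟨hxE, hxQ⟩
          have hx : x ∈ N ⊔ F := by rw [h]; exact hxE
          obtain ⟨n, hn, f, hf, rfl⟩ := mem_sup_normal hFn hx
          have hnQ : n ∈ Q := (hNE hn).2
          have hfQ : f ∈ Q := by
            have := Q.mul_mem (Q.inv_mem hnQ) hxQ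
            simpa using this
          exact N.mul_mem hn (hFN ⟨hf, hfQ⟩)
    have h1 := hQi _ _ hchief inf_le_right
    have h2 : iterCommutator E (zpowers g) i ≤ F :=
      iter_le_of_cover hFn hcov.ge (h1.trans inf_le_left)
    have h3 := iter_antitone hEc (show i ≤ i + j - 1 by omega)
    exact h3.trans h2

end Cfsg.Agent.Lib.KInf.ChiefBound
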